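import Groth.Agent.Vancyc.H700.LocGalM
import Groth.Agent.Etcore.HpullViaEq
import Groth.Agent.Etcore.Stalks

/-!
# `(σ - 1)(τ - 1) = 0` on `H^n(X_Ω)` when `τ` acts trivially on the stalks of nearby cycles
-/

set_option autoImplicit false
universe u v w

open CategoryTheory CategoryTheory.Limits CategoryTheory.Abelian AlgebraicGeometry Opposite
open scoped Groth.Agent.Etcore.EtInst
open Groth.Agent.Etcore.EtInst Groth.Agent.Etcore.HpullCalc
open Groth.Agent.Vancyc.H681.Restr Groth.Agent.EtpbcB.StrictLoc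

namespace Groth.Agent.Vancyc.H700.OddAct

/-- The Galois action is trivial on the image of the cohomology of `X`. -/
theorem galH_of_lift {R K Ω : Type u} [CommRing R] [Field K] [Algebra R K] [Field Ω] [Algebra K Ω]
    [Algebra R Ω] [IsScalarTower R K Ω] {X : Scheme.{u}} (f : X ⟶ Spec (CommRingCat.of R)) (F : EtCoh.Ab X) (m : ℕ)
    [PreservesFiniteLimits (EtCoh.pull (VanCyc.jA R f Ω))]
    (a : HH (VanCyc.fib R f Ω) ((EtCoh.pull (VanCyc.jA R f Ω)).obj F) m)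
    (h : ∃ b : HH X F m, hp (VanCyc.jA R f Ω) F m b = a)
    (σ : Ω ≃ₐ[K] Ω) [PreservesFiniteLimits (EtCoh.pull (VanCyc.galGeom f σ))] :
    VanCyc.galH f σ F m a = a := by
  obtain ⟨b, rfl⟩ := h
  have h1 : VanCyc.galH f σ F m (hp (VanCyc.jA R f Ω) F m b) = _ :=
    HpullVia_apply_eq_hpVia (VanCyc.galGeom f σ) (VanCyc.jA R f Ω) (VanCyc.jA R f Ω) (VanCyc.galGeom_jA f σ) F m
      (hp (VanCyc.jA R f Ω) F m b)
  exact h1.trans (hpVia_hp (VanCyc.galGeom f σ) (VanCyc.jA R f Ω) (VanCyc.jA R f Ω) (VanCyc.galGeom_jA f σ)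
      F m b)

/-- Invariance of the restriction to the Milnor fibre. -/
theorem resM_galH_eq {R K Ω : Type u} [CommRing R] [IsLocalRing R] [IsNoetherianRing R] [Field K] [Algebra R K]
    [IsFractionRing R K] [Field Ω] [Algebra K Ω] [Algebra.IsSeparable K Ω] [Algebra R Ω] [IsScalarTower R K Ω]
    {X : Scheme.{u}} (f : X ⟶ Spec (CommRingCat.of R)) {Ω' : Type u} [Field Ω'] [IsSepClosed Ω']
    (ξ : Spec (CommRingCat.of Ω') ⟶ VanCyc.spFib R f) (F : EtCoh.Ab X) (n : ℕ) (τ : Ω ≃ₐ[K] Ω)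
    (h : (EtCoh.stalk ξ).map (VanCyc.psiGal f τ n F) = 𝟙 _)
    (a : HH (VanCyc.fib R f Ω) ((EtCoh.pull (VanCyc.jA R f Ω)).obj F) n) :
    resM f (toBase (ξ ≫ VanCyc.icl R f)) F n (VanCyc.galH f τ F n a) =
      resM f (toBase (ξ ≫ VanCyc.icl R f)) F n a :=
  (resM_galH f (toBase (ξ ≫ VanCyc.icl R f)) (fun _ => inferInstance) τ F n a).trans
    ((LocGalM.galM_eq_smul f ξ F n τ 1 (h.trans (one_smul ℤ _).symm) _).trans (one_smul ℤ _))

/-- The formal part. -/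
theorem comp_eq_zero {H : Type*} [AddCommGroup H] (s t : H →+ H) (h : ∀ a, s (t a - a) = t a - a) :
    (s - AddMonoidHom.id H).comp (t - AddMonoidHom.id H) = 0 := by
  ext a
  change s (t a - a) - (t a - a) = 0
  rw [h, sub_self]

/-- `(σ - 1)(τ - 1) = 0`. -/
theorem main {R K Ω : Type u} [CommRing R] [IsLocalRing R] [IsNoetherianRing R] [Field K] [Algebra R K]
    [IsFractionRing R K] [Field Ω] [Algebra K Ω] [Algebra.IsSeparable K Ω] [Algebra R Ω] [IsScalarTower R K Ω]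
    {X : Scheme.{u}} (f : X ⟶ Spec (CommRingCat.of R)) (n : ℕ) (F : EtCoh.Ab X)
    [PreservesFiniteLimits (EtCoh.pull (VanCyc.jA R f Ω))]
    {ι : Type v} (Ω' : ι → Type u) [∀ x, Field (Ω' x)] [∀ x, IsSepClosed (Ω' x)]
    (ξ : ∀ x : ι, Spec (CommRingCat.of (Ω' x)) ⟶ VanCyc.spFib R f)
    (hK : ∀ (a : HH (VanCyc.fib R f Ω) ((EtCoh.pull (VanCyc.jA R f Ω)).obj F) n)
      (_ : ∀ x : ι, resM f (toBase (ξ x ≫ VanCyc.icl R f)) F n a = 0),
      ∃ b : HH X F n, hp (VanCyc.jA R f Ω) F n b = a)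
    (σ τ : Ω ≃ₐ[K] Ω) [PreservesFiniteLimits (EtCoh.pull (VanCyc.galGeom f σ))]
    [PreservesFiniteLimits (EtCoh.pull (VanCyc.galGeom f τ))]
    (hS : ∀ x : ι, (EtCoh.stalk (ξ x)).map (VanCyc.psiGal f τ n F) = 𝟙 _) :
    (VanCyc.galH f σ F n - AddMonoidHom.id _).comp (VanCyc.galH f τ F n - AddMonoidHom.id _) = 0 :=
  comp_eq_zero _ _ fun a => galH_of_lift f F n _ (hK _ fun x => by
    rw [map_sub, sub_eq_zero]
    exact resM_galH_eq f (ξ x) F n τ (hS x) a) σ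

end Groth.Agent.Vancyc.H700.OddAct
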